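import Cfsg.Agent.SF.CW
import Cfsg.Agent.SE.CFin

/-!
Groups in which every involution fixes exactly one point and the involutions of a point
stabiliser commute: the theorem, without solvability assumptions.
-/

set_option autoImplicit false

namespace Cfsg.Agent.SE.F
open MulAction Cfsg.Agent.H5.Invol

universe u

theorem zp_of_elab {G Ω : Type*} [Group G] [Finite G] [MulAction G Ω] (h : Hyp G Ω)
    (he : ∀ a : Ω, ElAb G a) : Zp G Ω := by
  intro s j a b hs hsa hab hja hjb hi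
  have h1 := he a _ _ (hs.conj j) hs (by rw [mul_smul, mul_smul, inv_smul_eq_iff.2 hja.symm, hsa,
    hja]) hsa
  have h2 : j * s * j⁻¹ * s = j * j := by
    rw [← hi, mul_assoc, mul_assoc, hs.mul_mul', hs.mul_mul]
  have hj : j ∈ D2 G a b := ⟨hja, hjb⟩
  refine eq_one_of_odd_card (h.odd_D2 hab) hj (eq_one_of_odd_card (h.odd_D2 hab) (mul_mem hj hj) ?_)
  rw [← h2]
  nth_rw 1 [h1]
  rw [mul_assoc, ← mul_assoc (j * s * j⁻¹), (hs.conj j).2, one_mul, hs.2]

variable {G Ω : Type u} [Group G] [Finite G] [MulAction G Ω]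

theorem Ctx.two_trans (c : Ctx G Ω) : IsMultiplyPretransitive G Ω 2 := by
  have := c.trans
  have := c.nontriv
  obtain ⟨x, -, y, -, hx, hy, hne, hc⟩ := c.rk2
  obtain ⟨a, hxa⟩ := c.toHyp.exists_fix hx
  have hya := c.toHyp.fix_of_comm hx hxa hc.symm
  obtain ⟨b, hb⟩ := exists_ne a
  have h1 : mm (⊤ : Subgroup G) a ≠ 1 := fun e => by
    obtain ⟨z, hz⟩ := Set.ncard_eq_one.1 e
    have k1 : x ∈ II (⊤ : Subgroup G) a := ⟨trivial, hx, hxa⟩
    have k2 : y ∈ II (⊤ : Subgroup G) a := ⟨trivial, hy, hya⟩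
    rw [hz] at k1 k2
    exact hne (k1.trans k2.symm)
  have zp := zp_of_elab c.toHyp c.ea
  exact c.toHyp.two_trans (Nat.minFac_prime h1) hx (Nat.minFac_dvd _)
    (c.toHyp.two_of_good (Nat.minFac_prime h1) hx
      (fun s j a b h1 h2 h3 h4 h5 h6 _ => zp s j a b h1 h2 h3 h4 h5 h6) hb.symm (Nat.minFac_dvd _))

theorem Ctx.concl (c : Ctx G Ω) : Concl G Ω := by
  have := c.trans
  obtain ⟨a⟩ := c.nontriv.to_nonempty
  have zp := zp_of_elab c.toHyp c.ea
  obtain ⟨x, -, -, -, hx, -⟩ := c.rk2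
  obtain ⟨t, h⟩ := c.cd c.two_trans (c.ea a) zp fun p Y pp hY h3 => c.toHyp.good_cent pp hx
    (fun s j a b h1 h2 h3 h4 h5 h6 _ => zp s j a b h1 h2 h3 h4 h5 h6) hY h3
  by_cases hW : D2 G a (t • a) ⊓ CZ G a = ⊥
  · by_contra hn
    refine hn (h.concl_L hW fun x u p pp h1 h2 h3 h4 h5 h6 => ?_)
    by_contra! h7
    exact hn (h.concl_R dich (noPP noP3) hW pp h1 h2 h3 h4 h5 h6 h7)
  · exact c.concl_W h hW

/-- **The theorem**: no solvability assumption when the involutions at a point commute. -/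
theorem concl_of_elab {G Ω : Type u} [Group G] [Finite G] [MulAction G Ω] [FaithfulSMul G Ω]
    [IsPretransitive G Ω] [Nontrivial Ω] (h : F.Hyp G Ω) (ea : ∀ a : Ω, ElAb G a)
    (h2 : Rk2 (⊤ : Subgroup G)) : Concl G Ω :=
  main_of (fun _ _ _ _ _ c => c.concl) (Nat.card G + 1) G Ω (Nat.lt_succ_self _) h ea h2

end Cfsg.Agent.SE.F
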